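import Cfsg.Agent.H817.DPi.Def
import Cfsg.Agent.H56.Exc.Fac
import Cfsg.Agent.S0205

/-!
# The index of `M = B ∩ Inn S` in the configuration of S4247 (helper81)

`S` a finite group with trivial centre, `Γ = K Inn S = B Inn S = (P × K) B`, `M = B ∩ Inn S`, `K₀ = K ∩ Inn S` as subgroups
of `S`:

* `idx_dvd` : `|S : M|` divides `|P| |K₀| |Aut S : Inn S|`;
* `ne_top` : `M ≠ S`;
* `K0_le` : `K₀` centralises `P`;
* `isSolvable` : `P` is solvable.
-/

set_option autoImplicit false

namespace Cfsg.Agent.H81.DP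

open Subgroup Cfsg Cfsg.Agent.H988.CPi Cfsg.Agent.H571.RV Cfsg.Agent.H817.DPi

universe u

variable {π : Set ℕ} {S : Type u} [Group S]

/-- `K ∩ Inn S` as a subgroup of `S` -/
def inr (K : Subgroup (MulAut S)) : Subgroup S := K.comap (MulAut.conj : S →* MulAut S)

theorem mem_inr {K : Subgroup (MulAut S)} {x : S} : x ∈ inr K ↔ MulAut.conj x ∈ K := Iff.rfl

variable {P : Subgroup S} {K B : Subgroup (MulAut S)}

theorem commute_aux (h : Cfg π P K B) (x : P) (k : K) : Commute (MulAut.conj (x : S)) (k : MulAut S) := by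
  have h1 : (k : MulAut S) (x : S) = x := h.fix k k.2 x x.2
  show MulAut.conj (x : S) * (k : MulAut S) = (k : MulAut S) * MulAut.conj (x : S)
  ext s
  show (x : S) * ((k : MulAut S) s) * (x : S)⁻¹ = (k : MulAut S) ((x : S) * s * (x : S)⁻¹)
  rw [map_mul, map_mul, map_inv, h1]

/-- `P × K → Aut S` -/
def prodHom (h : Cfg π P K B) : P × K →* MulAut S :=
  MonoidHom.noncommCoprod ((MulAut.conj : S →* MulAut S).comp P.subtype) K.subtype fun x k => commute_aux h x k

theorem prodHom_apply (h : Cfg π P K B) (x : P) (k : K) : prodHom h (x, k) = MulAut.conj (x : S) * (k : MulAut S) := rfl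

section finite

variable [Finite S]

omit [Finite S] in
theorem rel_card {G : Type*} [Group G] {H K : Subgroup G} (h : H ≤ K) : H.relIndex K * Nat.card H = Nat.card K := by
  have h1 := relIndex_mul_relIndex ⊥ H K bot_le h
  rw [relIndex_bot_left, relIndex_bot_left] at h1
  rw [mul_comm]
  exact h1

omit [Finite S] in
/-- `|N : B ∩ N| = |B N : B|` -/
theorem relIndex_sup {G : Type*} [Group G] [Finite G] (B N : Subgroup G) [N.Normal] :
    B.relIndex (B ⊔ N) = B.relIndex N := by
  have h1 : B.relIndex (B ⊔ N) * Nat.card B = Nat.card ↥(B ⊔ N) := rel_card le_sup_left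
  have h2 : N.relIndex (B ⊔ N) * Nat.card N = Nat.card ↥(B ⊔ N) := rel_card le_sup_right
  have h3 : N.relIndex (B ⊔ N) = N.relIndex B := relIndex_sup_right _ _
  have h4 : N.relIndex B * Nat.card ↥(N ⊓ B) = Nat.card B := by
    rw [← inf_relIndex_right]; exact rel_card inf_le_right
  have h5 : B.relIndex N * Nat.card ↥(B ⊓ N) = Nat.card N := by
    rw [← inf_relIndex_right]; exact rel_card inf_le_right
  rw [inf_comm] at h5
  rw [← h2, h3, ← h4, ← h5] at h1
  have hp1 : 0 < N.relIndex B := Nat.pos_of_ne_zero index_ne_zero_of_finite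
  have hp2 : 0 < Nat.card ↥(N ⊓ B) := Nat.card_pos
  apply Nat.eq_of_mul_eq_mul_right (Nat.mul_pos hp1 hp2)
  rw [h1]; ring

theorem idx_dvd_aux (h : Cfg π P K B) : (inr B).index ∣ Nat.card P * Nat.card K := by
  have h1 : (inr B).index = B.relIndex (inn S) := index_comap B (MulAut.conj : S →* MulAut S)
  rw [h1, ← relIndex_sup B (inn S)]
  set Γ := B ⊔ inn S with hΓ
  have hP : ∀ x ∈ P, MulAut.conj x ∈ Γ := fun x _ => (le_sup_right : inn S ≤ Γ) ⟨x, rfl⟩
  have hK : K ≤ Γ := by rw [hΓ, ← h.sup]; exact le_sup_left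
  have h2 := Cfsg.Agent.H56.Exc.index_dvd_of_factor ((prodHom h).range.subgroupOf Γ) (B.subgroupOf Γ) (by
    rintro ⟨g, hg⟩
    obtain ⟨x, hx, k, hk, b, hb, he⟩ := h.fac g hg
    refine ⟨⟨MulAut.conj x * k, mul_mem (hP x hx) (hK hk)⟩, ?_, ⟨b, (le_sup_left : B ≤ Γ) hb⟩, ?_, Subtype.ext he⟩
    · exact ⟨(⟨x, hx⟩, ⟨k, hk⟩), rfl⟩
    · exact hb)
  refine h2.trans ?_
  have h3 : Nat.card ↥((prodHom h).range.subgroupOf Γ) ∣ Nat.card (prodHom h).range :=
    card_comap_dvd_of_injective _ Γ.subtype Γ.subtype_injective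
  refine h3.trans ((card_range_dvd _).trans ?_)
  rw [Nat.card_prod]

omit [Finite S] in
theorem card_K_dvd (K : Subgroup (MulAut S)) : Nat.card K ∣ Nat.card (inr K) * (inn S).index := by
  have h1 : (inn S).relIndex K * Nat.card ↥(inn S ⊓ K) = Nat.card K := by
    rw [← inf_relIndex_right]; exact rel_card inf_le_right
  rw [← h1, mul_comm]
  apply Nat.mul_dvd_mul _ (relIndex_dvd_index_of_normal _ _)
  have h2 : (inr K).map (MulAut.conj : S →* MulAut S) = inn S ⊓ K := map_comap_eq _ _
  rw [← h2]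
  exact card_map_dvd _ _

/-- **`|S : M|` divides `|P| |K₀| |Aut S : Inn S|`.** -/
theorem idx_dvd (h : Cfg π P K B) : (inr B).index ∣ Nat.card P * Nat.card (inr K) * (inn S).index := by
  rw [mul_assoc]
  exact (idx_dvd_aux h).trans (Nat.mul_dvd_mul_left _ (card_K_dvd K))

theorem not_dvd_index (h : Cfg π P K B) {r : ℕ} (hr : r.Prime) (h1 : ¬ r ∣ Nat.card P) (h2 : ¬ r ∣ Nat.card (inr K))
    (h3 : ¬ r ∣ (inn S).index) : ¬ r ∣ (inr B).index := fun h4 => by
  rcases hr.dvd_mul.1 (h4.trans (idx_dvd h)) with h5 | h5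
  · rcases hr.dvd_mul.1 h5 with h6 | h6
    · exact h1 h6
    · exact h2 h6
  · exact h3 h5

omit [Finite S] in
/-- **`M ≠ S`** -/
theorem ne_top (h : Cfg π P K B) (hc : center S = ⊥) : inr B ≠ ⊤ := by
  intro ht
  apply h.nnil
  have hinj : Function.Injective (MulAut.conj : S →* MulAut S) := by
    rw [← MonoidHom.ker_eq_bot_iff, eq_bot_iff, ← hc]
    intro x hx
    rw [mem_center_iff]
    intro g
    have h1 := DFunLike.congr_fun (MonoidHom.mem_ker.1 hx) g
    rw [MulAut.conj_apply, MulAut.one_apply] at h1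
    calc g * x = (x * g * x⁻¹) * x := by rw [h1]
      _ = x * g := by group
  have h1 : ∀ p : ℕ, p.Prime → ¬ p ∣ Nat.card P := by
    intro p hp hd
    refine h.piB p hp (h.hall.1 p hp hd) ?_
    have h2 : Nat.card S ∣ Nat.card B := by
      have h3 : Nat.card ↥((⊤ : Subgroup S).map (MulAut.conj : S →* MulAut S)) = Nat.card S := by
        rw [card_map_of_injective hinj, card_top]
      rw [← h3]
      apply card_dvd_of_le
      rw [← ht]
      exact map_comap_le _ _
    exact (hd.trans (card_subgroup_dvd_card P)).trans h2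
  have h2 : Nat.card P = 1 := by
    by_contra h3
    obtain ⟨p, hp, hd⟩ := Nat.exists_prime_and_dvd h3
    exact h1 p hp hd
  have h3 : Subsingleton P := (Nat.card_eq_one_iff_unique.1 h2).1
  infer_instance

/-- `P` is solvable -/
theorem isSolvable (h : Cfg π P K B) : Group.IsSolvable P := by
  apply Cfsg.Agent.S0205.result
  rw [← Nat.not_even_iff_odd]
  intro he
  exact h.two (h.hall.1 2 Nat.prime_two he.two_dvd)

omit [Finite S] in
theorem not_two_dvd (h : Cfg π P K B) : ¬ 2 ∣ Nat.card P := fun h1 => h.two (h.hall.1 2 Nat.prime_two h1)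

end finite

/-- `K₀` centralises `P` -/
theorem K0_comm (h : Cfg π P K B) {k : S} (hk : k ∈ inr K) {x : S} (hx : x ∈ P) : k * x = x * k := by
  have h1 : k * x * k⁻¹ = x := h.fix _ hk x hx
  calc k * x = (k * x * k⁻¹) * k := by group
    _ = x * k := by rw [h1]

theorem K0_le (h : Cfg π P K B) {x : S} (hx : x ∈ P) : inr K ≤ centralizer ({x} : Set S) := fun _ hk =>
  mem_centralizer_singleton_iff.2 (K0_comm h hk hx)

/-- a prime `r` with cyclic centralisers does not divide `|K₀|` -/
theorem not_dvd_K0 [Finite S] (h : Cfg π P K B) {r : ℕ} (hr : r.Prime)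
    (hcyc : ∀ x : S, orderOf x = r → IsCyclic ↥(centralizer ({x} : Set S))) : ¬ r ∣ Nat.card (inr K) := by
  intro hd
  have := Fact.mk hr
  obtain ⟨⟨k, hk⟩, hko⟩ := exists_prime_orderOf_dvd_card' r hd
  have hko' : orderOf k = r := by rw [← hko, orderOf_mk]
  have hC := hcyc k hko'
  apply h.nnil
  have hle : P ≤ centralizer ({k} : Set S) := fun x hx => mem_centralizer_singleton_iff.2 (K0_comm h hk hx).symm
  have hP : IsCyclic P := isCyclic_of_injective (inclusion hle) (inclusion_injective hle)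
  let _ := IsCyclic.commGroup (α := P)
  infer_instance

end Cfsg.Agent.H81.DP
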